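import Cfsg.Agent.H623.OC.OddTool

/-!
# Norm five (S4891, OC layer, R12 (B3) of helper287)

`wt_of_five` : `Ψ` of norm `5`, `⟨Ψ, π⟩ = ⟨Ψ, π'⟩ + 1`, `π' ≤ π`, and three different `A`-invariant constituents of `Ψ` are all of
them.
-/

set_option autoImplicit false

open Cfsg
open scoped ComplexConjugate

namespace Cfsg.Agent.H763.OC

open Cfsg.Agent.H145.BR Cfsg.Agent.H993.OC Cfsg.Agent.Characters Cfsg.Agent.H846.RatB Cfsg.Agent.H623.OddTool
open H700.PRat (zet zet_prim fix_adjoin mem_adjoin_of_forall fix_root)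

universe u

/-- Galois conjugates -/
noncomputable def gal {S : Type u} [Group S] [Finite S] (σ : ℂ ≃+* ℂ) (χ : IrrCharacter S) : IrrCharacter S :=
  ⟨fun g => σ ((χ : S → ℂ) g), GaloisIrr.isIrr_map σ χ.2⟩

theorem gal_apply {S : Type u} [Group S] [Finite S] (σ : ℂ ≃+* ℂ) (χ : IrrCharacter S) (g : S) :
    (gal σ χ : S → ℂ) g = σ ((χ : S → ℂ) g) := rfl

/-- **norm five** -/
theorem wt_of_five {p : ℕ} [Fact p.Prime] (_hp2 : p ≠ 2) {S : Type u} [Group S] [Finite S] [Fintype S]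
    {A : Subgroup (MulAut S)} (hA : IsPGroup p A) {Ψ : S → ℂ} (hΨ : IsCharacter S Ψ) (h5 : classInner Ψ Ψ = 5)
    (h1 : classInner Ψ 1 = 0) {d : ℕ} (hd : Ψ 1 = d) (hpd : ¬ p ∣ d) (hrat : PRat p Ψ)
    (hinv : ∀ a ∈ A, ∀ x, Ψ (a x) = Ψ x)
    {π π' : S → ℂ} (hπ : IsCharacter S π) (hπ' : IsCharacter S π') (hrπ : PRat p π) (hrπ' : PRat p π')
    (hiπ : ∀ a ∈ A, ∀ x, π (a x) = π x) (hiπ' : ∀ a ∈ A, ∀ x, π' (a x) = π' x)
    (hle : ∀ χ, IsIrrCharacter S χ → ∃ m : ℕ, classInner π χ = classInner π' χ + m)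
    (h1' : classInner Ψ π = classInner Ψ π' + 1)
    (horb : ∀ χ : Fin 3 → S → ℂ, Function.Injective χ → (∀ i, IsIrrCharacter S (χ i)) →
      (∀ i, ∀ a ∈ A, ∀ x, χ i (a x) = χ i x) → (∀ i, classInner Ψ (χ i) ≠ 0) →
      ∀ ψ, IsIrrCharacter S ψ → classInner Ψ ψ ≠ 0 → ∃ i, ψ = χ i) :
    ∃ θ, Wt p S A θ := by
  classical
  have := Core.finite_irr (G := S)
  have := Fintype.ofFinite (IrrCharacter S)
  obtain ⟨m, hm⟩ := Core.exists_nat_comb hΨ
  obtain ⟨a, ha⟩ := Core.exists_nat_comb hπ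
  obtain ⟨b, hb⟩ := Core.exists_nat_comb hπ'
  have inn : ∀ c e : IrrCharacter S → ℕ, classInner (∑ ψ : IrrCharacter S, c ψ • (ψ : S → ℂ))
      (∑ ψ : IrrCharacter S, e ψ • (ψ : S → ℂ)) = ((∑ ψ, c ψ * e ψ : ℕ) : ℂ) := by
    intro c e
    have h4 := Core.classInner_sum_smul_sum_smul (fun ψ : IrrCharacter S => (c ψ : ℂ)) (fun ψ => (e ψ : ℂ))
    simp only [Nat.cast_smul_eq_nsmul, map_natCast] at h4
    rw [h4]
    push_cast
    rfl
  have e5 : ∑ ψ, m ψ * m ψ = 5 := by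
    have h4 := inn m m
    rw [← hm, h5] at h4
    exact_mod_cast h4.symm
  have hmi : ∀ χ : IrrCharacter S, classInner Ψ (χ : S → ℂ) = m χ := by
    intro χ
    rw [hm]
    exact Core.classInner_sum_nsmul_irr m χ
  have hai : ∀ χ : IrrCharacter S, classInner π (χ : S → ℂ) = a χ := by
    intro χ
    rw [ha]
    exact Core.classInner_sum_nsmul_irr a χ
  have hbi : ∀ χ : IrrCharacter S, classInner π' (χ : S → ℂ) = b χ := by
    intro χ
    rw [hb]
    exact Core.classInner_sum_nsmul_irr b χ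
  have hba : ∀ χ, b χ ≤ a χ := by
    intro χ
    obtain ⟨t, ht⟩ := hle χ χ.2
    rw [hai, hbi] at ht
    have h6 : a χ = b χ + t := by exact_mod_cast ht
    omega
  have e1 : ∑ ψ, m ψ * (a ψ - b ψ) = 1 := by
    have h4 := inn m a
    have h6 := inn m b
    rw [← hm, ← ha] at h4
    rw [← hm, ← hb] at h6
    rw [h4, h6] at h1'
    have h7 : ∑ ψ, m ψ * a ψ = ∑ ψ, m ψ * b ψ + 1 := by exact_mod_cast h1'
    have h8 : ∑ ψ, m ψ * a ψ = ∑ ψ, m ψ * b ψ + ∑ ψ, m ψ * (a ψ - b ψ) := by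
      rw [← Finset.sum_add_distrib]
      refine Finset.sum_congr rfl fun ψ _ => ?_
      rw [← mul_add, Nat.add_sub_cancel' (hba ψ)]
    omega
  have two : ∀ (f : IrrCharacter S → ℕ) (x y : IrrCharacter S), x ≠ y → f x + f y ≤ ∑ ψ, f ψ := by
    intro f x y hxy
    rw [← Finset.sum_pair hxy]
    exact Finset.sum_le_sum_of_subset (Finset.subset_univ _)
  obtain ⟨ρ, hρ⟩ : ∃ ρ, m ρ * (a ρ - b ρ) ≠ 0 := by
    by_contra hcon
    push Not at hcon
    rw [Finset.sum_eq_zero fun ψ _ => hcon ψ] at e1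
    omega
  have huniq : ∀ χ, m χ * (a χ - b χ) ≠ 0 → χ = ρ := by
    intro χ hχ
    by_contra hne
    have h6 := two (fun ψ => m ψ * (a ψ - b ψ)) χ ρ hne
    rw [e1] at h6
    have h7 := Nat.pos_of_ne_zero hχ
    have h8 := Nat.pos_of_ne_zero hρ
    omega
  have hρ1 : m ρ = 1 := by
    have h6 : m ρ * (a ρ - b ρ) ≤ ∑ ψ, m ψ * (a ψ - b ψ) :=
      Finset.single_le_sum (f := fun ψ => m ψ * (a ψ - b ψ)) (fun _ _ => Nat.zero_le _) (Finset.mem_univ ρ)
    rw [e1] at h6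
    have h7 : m ρ * (a ρ - b ρ) = 1 := by omega
    exact Nat.eq_one_of_mul_eq_one_right h7
  -- the automorphisms
  have hmt : ∀ α ∈ A, ∀ χ : IrrCharacter S, m (tw α χ) = m χ ∧ a (tw α χ) = a χ ∧ b (tw α χ) = b χ := by
    intro α hα χ
    refine ⟨?_, ?_, ?_⟩
    · have h6 := inner_tw α (hinv α hα) χ
      rw [hmi, hmi] at h6
      exact_mod_cast h6
    · have h6 := inner_tw α (hiπ α hα) χ
      rw [hai, hai] at h6
      exact_mod_cast h6
    · have h6 := inner_tw α (hiπ' α hα) χ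
      rw [hbi, hbi] at h6
      exact_mod_cast h6
  have hρA : ∀ α ∈ A, ∀ x, (ρ : S → ℂ) (α x) = (ρ : S → ℂ) x := by
    intro α hα x
    have h6 : tw α⁻¹ ρ = ρ := by
      apply huniq
      obtain ⟨h7, h8, h9⟩ := hmt α⁻¹ (A.inv_mem hα) ρ
      rw [h7, h8, h9]
      exact hρ
    have h9 := congrArg (fun θ : IrrCharacter S => (θ : S → ℂ) x) h6
    have h10 : (ρ : S → ℂ) ((α⁻¹)⁻¹ x) = (ρ : S → ℂ) x := h9
    rwa [inv_inv] at h10
  -- Galois
  obtain ⟨n, hn, hF⟩ := common_fin (p := p) (fun o : Option Bool => o.elim Ψ (fun i => if i then π else π')) (by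
    rintro (_ | _ | _)
    · exact hrat
    · exact hrπ'
    · exact hrπ)
  have hgal : ∀ σ : ℂ ≃+* ℂ, σ (zet n) = zet n → ∀ χ : IrrCharacter S,
      m (gal σ χ) = m χ ∧ a (gal σ χ) = a χ ∧ b (gal σ χ) = b χ := by
    intro σ hσ χ
    have hχ := Core.isIrr_isCharacter χ.2
    refine ⟨?_, ?_, ?_⟩
    · have h6 : classInner Ψ (gal σ χ : S → ℂ) = classInner Ψ (χ : S → ℂ) :=
        inner_map σ hΨ hχ fun g => fix_adjoin σ hσ (hF none g)
      rw [hmi, hmi] at h6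
      exact_mod_cast h6
    · have h6 : classInner π (gal σ χ : S → ℂ) = classInner π (χ : S → ℂ) :=
        inner_map σ hπ hχ fun g => fix_adjoin σ hσ (hF (some true) g)
      rw [hai, hai] at h6
      exact_mod_cast h6
    · have h6 : classInner π' (gal σ χ : S → ℂ) = classInner π' (χ : S → ℂ) :=
        inner_map σ hπ' hχ fun g => fix_adjoin σ hσ (hF (some false) g)
      rw [hbi, hbi] at h6
      exact_mod_cast h6
  have hρσ : ∀ σ : ℂ ≃+* ℂ, σ (zet n) = zet n → gal σ ρ = ρ := by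
    intro σ hσ
    apply huniq
    obtain ⟨h7, h8, h9⟩ := hgal σ hσ ρ
    rw [h7, h8, h9]
    exact hρ
  have hPRat : ∀ χ : IrrCharacter S, (∀ σ : ℂ ≃+* ℂ, σ (zet n) = zet n → gal σ χ = χ) → PRat p (χ : S → ℂ) := by
    intro χ hχ
    refine (pRatC_iff (p := p) fun g => integral_irr (Core.isIrr_isCharacter χ.2) g).2 ⟨n, hn, fun σ hσ g => ?_⟩
    have h6 := congrArg (fun θ : IrrCharacter S => (θ : S → ℂ) g) (hχ σ hσ)
    exact h6
  have hne1 : ∀ χ : IrrCharacter S, m χ ≠ 0 → (χ : S → ℂ) ≠ 1 := by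
    intro χ hχ h6
    apply hχ
    have h7 := hmi χ
    rw [h6, h1] at h7
    exact_mod_cast h7.symm
  obtain ⟨e, he0, he⟩ := Core.isIrr_apply_one ρ.2
  by_cases hpe : p ∣ e
  swap
  · exact ⟨ρ, ρ.2, hne1 ρ (by rw [hρ1]; norm_num), ⟨e, he, hpe⟩, hPRat ρ hρσ, hρA⟩
  -- `Ψ - ρ`
  let m' : IrrCharacter S → ℕ := fun χ => if χ = ρ then 0 else m χ
  let Ψ2 : S → ℂ := ∑ ψ : IrrCharacter S, m' ψ • (ψ : S → ℂ)
  have hΨ2 : IsCharacter S Ψ2 := Core.isCharacter_sum _ fun ψ _ => Core.isCharacter_nsmul _ (Core.isIrr_isCharacter ψ.2)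
  have hsum : Ψ = Ψ2 + (ρ : S → ℂ) := by
    have h6 : ∀ ψ : IrrCharacter S, m ψ • (ψ : S → ℂ) = m' ψ • (ψ : S → ℂ) +
        (if ψ = ρ then (ρ : S → ℂ) else 0) := by
      intro ψ
      by_cases h7 : ψ = ρ
      · subst h7
        simp [m', hρ1]
      · simp [m', h7]
    conv_lhs => rw [hm]
    rw [Finset.sum_congr rfl fun ψ _ => h6 ψ, Finset.sum_add_distrib, Finset.sum_ite_eq' Finset.univ ρ,
      if_pos (Finset.mem_univ ρ)]
  have hm2 : ∀ χ : IrrCharacter S, classInner Ψ2 (χ : S → ℂ) = m' χ := fun χ => Core.classInner_sum_nsmul_irr m' χ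
  have hΨ2v : ∀ x, Ψ2 x = Ψ x - (ρ : S → ℂ) x := fun x => by
    rw [hsum, Pi.add_apply, add_sub_cancel_right]
  obtain ⟨d2, hd2⟩ := Core.isCharacter_apply_one hΨ2
  have hpd2 : ¬ p ∣ d2 := by
    intro h6
    apply hpd
    have h7 := congrFun hsum 1
    rw [Pi.add_apply, hd, hd2, he] at h7
    have h8 : d = d2 + e := by exact_mod_cast h7
    rw [h8]
    exact dvd_add h6 hpe
  obtain ⟨θ, hθ, hθc, hθd, hθA⟩ := exists_fixed hA hΨ2 hd2 hpd2 (fun α hα x => by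
    rw [hΨ2v, hΨ2v, hinv α hα, hρA α hα])
  obtain ⟨χ, rfl⟩ : ∃ χ : IrrCharacter S, (χ : S → ℂ) = θ := ⟨⟨_, hθ⟩, rfl⟩
  rw [hm2] at hθc
  have hχρ : χ ≠ ρ := by
    rintro rfl
    apply hθc
    simp [m']
  have hχm : m χ ≠ 0 := by
    intro h6
    apply hθc
    simp [m', hχρ, h6]
  refine ⟨χ, χ.2, hne1 χ hχm, hθd, hPRat χ fun σ hσ => ?_, hθA⟩
  by_contra hne
  obtain ⟨hmσ, -, -⟩ := hgal σ hσ χ
  have hσρ : gal σ χ ≠ ρ := by
    intro h6
    apply hχρ
    apply Subtype.ext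
    funext g
    have h7 := congrArg (fun θ : IrrCharacter S => (θ : S → ℂ) g) (h6.trans (hρσ σ hσ).symm)
    exact σ.injective h7
  have hall := horb ![(ρ : S → ℂ), (χ : S → ℂ), (gal σ χ : S → ℂ)] (by
      intro i j hij
      fin_cases i <;> fin_cases j
      · rfl
      · exact absurd (Subtype.ext hij.symm) hχρ
      · exact absurd (Subtype.ext hij.symm) hσρ
      · exact absurd (Subtype.ext hij) hχρ
      · rfl
      · exact absurd (Subtype.ext hij.symm) hne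
      · exact absurd (Subtype.ext hij) hσρ
      · exact absurd (Subtype.ext hij) hne
      · rfl)
    (by
      intro i
      fin_cases i
      · exact ρ.2
      · exact χ.2
      · exact (gal σ χ).2)
    (by
      intro i α hα x
      fin_cases i
      · exact hρA α hα x
      · exact hθA α hα x
      · change σ ((χ : S → ℂ) (α x)) = σ ((χ : S → ℂ) x)
        rw [hθA α hα x])
    (by
      intro i
      fin_cases i
      · change classInner Ψ (ρ : S → ℂ) ≠ 0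
        rw [hmi, hρ1]
        norm_num
      · change classInner Ψ (χ : S → ℂ) ≠ 0
        rw [hmi]
        exact_mod_cast hχm
      · change classInner Ψ (gal σ χ : S → ℂ) ≠ 0
        rw [hmi, hmσ]
        exact_mod_cast hχm)
  have hcases : ∀ ψ : IrrCharacter S, m ψ ≠ 0 → ψ = ρ ∨ ψ = χ ∨ ψ = gal σ χ := by
    intro ψ hψ
    obtain ⟨i, hi⟩ := hall ψ ψ.2 (by rw [hmi]; exact_mod_cast hψ)
    fin_cases i
    · exact Or.inl (Subtype.ext hi)
    · exact Or.inr (Or.inl (Subtype.ext hi))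
    · exact Or.inr (Or.inr (Subtype.ext hi))
  have h6 : ∑ ψ, m ψ * m ψ = ∑ ψ ∈ ({ρ, χ, gal σ χ} : Finset (IrrCharacter S)), m ψ * m ψ := by
    symm
    apply Finset.sum_subset (Finset.subset_univ _)
    intro ψ _ hψ
    by_contra h7
    apply hψ
    rcases hcases ψ (fun h8 => h7 (by rw [h8, zero_mul])) with h9 | h9 | h9 <;> simp [h9]
  rw [Finset.sum_insert (by
      rw [Finset.mem_insert, Finset.mem_singleton, not_or]
      exact ⟨hχρ.symm, hσρ.symm⟩), Finset.sum_pair (Ne.symm hne), hmσ, hρ1, e5] at h6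
  have h7 : m χ * m χ = 2 := by omega
  have h8 : m χ < 2 := by
    by_contra h9
    have h10 := Nat.mul_le_mul (not_lt.1 h9) (not_lt.1 h9)
    omega
  interval_cases (m χ) <;> omega

end Cfsg.Agent.H763.OC
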