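import Cfsg.Agent.H993.OC.Row
import Cfsg.Agent.KFacts.RgdAut

/-!
# S4891 (R12), (P3): Sylow `p`-subgroups of `Aut(S)` normalizing a Sylow `p`-subgroup of `S` (helper763)
-/

set_option autoImplicit false

namespace Cfsg.Agent.H763.OC

open Cfsg Cfsg.Agent.KFacts.RgdAut

universe u

section

variable {p : ℕ} [Fact p.Prime] {S : Type u} [Group S]

/-- the stabilizer of a subgroup in `Aut(S)` -/
def fixG (U : Subgroup S) : Subgroup (MulAut S) where
  carrier := {α | Fix α U}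
  one_mem' := fun _ => Iff.rfl
  mul_mem' := fun ha hb => Fix.mul ha hb
  inv_mem' := fun ha => Fix.inv ha

theorem mem_fixG {U : Subgroup S} {α : MulAut S} : α ∈ fixG U ↔ Fix α U := Iff.rfl

omit [Fact p.Prime] in
theorem fixG_eq (U : Sylow p S) : fixG (U : Subgroup S) = MulAction.stabilizer (MulAut S) U := by
  ext α
  rw [mem_fixG, MulAction.mem_stabilizer_iff]
  constructor
  · intro h
    apply Sylow.ext
    rw [Sylow.pointwise_smul_def]
    ext x
    rw [Subgroup.mem_pointwise_smul_iff_inv_smul_mem]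
    rw [MulAut.smul_def]
    exact (h.inv x)
  · intro h x
    have h1 := congrArg (fun P : Sylow p S => (P : Subgroup S)) h
    simp only [Sylow.pointwise_smul_def] at h1
    constructor
    · intro hx
      rw [← h1, Subgroup.mem_pointwise_smul_iff_inv_smul_mem, MulAut.smul_def] at hx
      rwa [MulAut.inv_apply_self] at hx
    · intro hx
      rw [← h1, Subgroup.mem_pointwise_smul_iff_inv_smul_mem, MulAut.smul_def, MulAut.inv_apply_self]
      exact hx

theorem not_dvd_index_fixG [Finite S] (U : Sylow p S) : ¬ p ∣ (fixG (U : Subgroup S)).index := by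
  haveI : MulAction.IsPretransitive (MulAut S) (Sylow p S) := by
    refine ⟨fun P Q => ?_⟩
    obtain ⟨g, hg⟩ := MulAction.exists_smul_eq S P Q
    exact ⟨MulAut.conj g, hg⟩
  rw [fixG_eq, MulAction.index_stabilizer_of_transitive]
  intro h
  have h1 := card_sylow_modEq_one p S
  have h2 : Nat.card (Sylow p S) ≡ 0 [MOD p] := (Nat.modEq_zero_iff_dvd).2 h
  have h3 := (h1.symm.trans h2)
  have h4 : p ∣ 1 := (Nat.modEq_zero_iff_dvd).1 h3
  exact (Fact.out : p.Prime).one_lt.ne' (Nat.dvd_one.1 h4)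

/-- **(P3)** -/
theorem exists_sylow_aut [Finite S] (U : Sylow p S) {τ : MulAut S}
    (hτ : Fix τ (U : Subgroup S)) {k : ℕ} (hk : τ ^ p ^ k = 1) {A : Subgroup (MulAut S)} (hA : IsPGroup p A) :
    ∃ A' : Subgroup (MulAut S), IsPGroup p A' ∧ τ ∈ A' ∧ (∀ a ∈ A', Fix a (U : Subgroup S)) ∧
      ∃ γ : MulAut S, ∀ a ∈ A, γ * a * γ⁻¹ ∈ A' := by
  haveI : Finite (MulAut S) := inferInstance
  set N : Subgroup (MulAut S) := fixG (U : Subgroup S) with hN
  have hidx : ¬ p ∣ N.index := not_dvd_index_fixG U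
  -- the cyclic group of `τ`
  have hZ : IsPGroup p (Subgroup.zpowers (⟨τ, hτ⟩ : N)) := by
    rintro ⟨x, hx⟩
    obtain ⟨i, rfl⟩ := Subgroup.mem_zpowers_iff.1 hx
    refine ⟨k, Subtype.ext (Subtype.ext ?_)⟩
    change (τ ^ i) ^ p ^ k = 1
    rw [← zpow_natCast, ← zpow_mul, mul_comm, zpow_mul, zpow_natCast, hk, one_zpow]
  obtain ⟨P', hP'⟩ := hZ.exists_le_sylow
  set A' : Subgroup (MulAut S) := (P' : Subgroup N).map N.subtype with hA'
  have hA'p : IsPGroup p A' := P'.isPGroup'.map _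
  have hA'N : A' ≤ N := Subgroup.map_subtype_le _
  have hidx' : ¬ p ∣ A'.index := by
    rw [← Subgroup.relIndex_mul_index hA'N]
    intro h
    rcases (Fact.out : p.Prime).dvd_mul.1 h with h1 | h1
    · have h2 : A'.relIndex N = (P' : Subgroup N).index := by
        rw [Subgroup.relIndex, hA', Subgroup.subgroupOf, Subgroup.comap_map_eq_self_of_injective N.subtype_injective]
      rw [h2] at h1
      exact P'.not_dvd_index h1
    · exact hidx h1
  obtain ⟨Q, hQ⟩ := hA.exists_le_sylow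
  obtain ⟨R, hR⟩ := hA'p.exists_le_sylow
  have hRA : (R : Subgroup (MulAut S)) = A' := by
    have h1 : A'.relIndex (R : Subgroup (MulAut S)) ∣ A'.index := Subgroup.relIndex_dvd_index_of_le hR
    have h2 : IsPGroup p (R : Subgroup (MulAut S)) := R.isPGroup'
    obtain ⟨m, hm⟩ := IsPGroup.iff_card.1 h2
    have h3 : A'.relIndex (R : Subgroup (MulAut S)) ∣ p ^ m := by
      rw [← hm]
      exact Subgroup.relIndex_dvd_card _ _
    obtain ⟨j, -, hj⟩ := (Nat.dvd_prime_pow Fact.out).1 h3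
    have hj0 : j = 0 := by
      by_contra hj0
      apply hidx'
      refine dvd_trans ?_ h1
      rw [hj]
      exact dvd_pow_self p hj0
    rw [hj0, pow_zero, Subgroup.relIndex_eq_one] at hj
    exact le_antisymm hj hR
  obtain ⟨γ, hγ⟩ := MulAction.exists_smul_eq (MulAut S) Q R
  refine ⟨A', hA'p, ?_, fun a ha => hA'N ha, γ, fun a ha => ?_⟩
  · exact ⟨⟨τ, hτ⟩, hP' (Subgroup.mem_zpowers _), rfl⟩
  · rw [← hRA, ← hγ]
    have h1 : a ∈ (Q : Subgroup (MulAut S)) := hQ ha
    change γ * a * γ⁻¹ ∈ ((γ • Q : Sylow p (MulAut S)) : Subgroup (MulAut S))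
    rw [Sylow.coe_subgroup_smul, Subgroup.mem_pointwise_smul_iff_inv_smul_mem]
    convert h1 using 1
    rw [← map_inv, MulAut.smul_def, MulAut.conj_apply, inv_inv]
    group

end

/-- **(P3')** -/
theorem wt_of_conj {p : ℕ} {S : Type u} [Group S] {A A' : Subgroup (MulAut S)} {γ : MulAut S}
    (h : ∀ a ∈ A, γ * a * γ⁻¹ ∈ A') {θ : S → ℂ} (hθ : H993.OC.Wt p S A' θ) :
    H993.OC.Wt p S A (fun x => θ (γ x)) := by
  refine H993.OC.Wt.of_equiv (p := p) (S := S) (X := S) γ (A := A) (θ := θ) ?_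
  obtain ⟨h1, h2, h3, h4, h5⟩ := hθ
  refine ⟨h1, h2, h3, h4, ?_⟩
  rintro _ ⟨a, ha, rfl⟩ x
  have := h5 _ (h a ha) x
  rw [← this]
  rfl

end Cfsg.Agent.H763.OC
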