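import Cfsg.Agent.H993.OC.Row
import Cfsg.Agent.H576.Ext.SemiL
import Cfsg.Agent.H477.HC.Main

/-!
# The cuspidal data of the rows `PΩ` (S4891, OC layer, irreducible variant)
-/

set_option autoImplicit false

open Cfsg

namespace Cfsg.Agent.H763.OC

open Cfsg.Agent.H477.HC Cfsg.Agent.H53.HC Cfsg.Agent.Characters Cfsg.Agent.H576.Ext Module
open Cfsg.Agent.H145.BR (PRat)

universe u

/-- a `p`-rational cuspidal character of `GL_k(K)`, of degree prime to `p`, not self-dual, fixed by the field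
automorphisms of `p`-power order -/
structure Cu (p : ℕ) (K : Type u) [Field K] (k : ℕ) (c : GL (Fin k) K → ℂ) : Prop where
  irr : IsIrrCharacter _ c
  cusp : IsCusp c
  dual : c ∘ invT k ≠ c
  rat : PRat p c
  fix : ∀ τ : K ≃+* K, ∃ m : ℕ, ¬ p ∣ m ∧ fmap ((τ ^ m : K ≃+* K) : K →+* K) c = c
  deg : ∃ d : ℕ, c 1 = d ∧ ¬ p ∣ d

/-- the datum for the group `PΩ_{2m+1}` -/
def ExCuTwo (p : ℕ) (K : Type u) [Field K] : Prop := ∃ c : GL (Fin 2) K → ℂ, Cu p K 2 c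

/-- the datum for the groups `PΩ±` -/
def ExCuNeg (p : ℕ) (K : Type u) [Field K] : Prop :=
  (∃ c : GL (Fin 2) K → ℂ, Cu p K 2 c ∧ c (Matrix.GeneralLinearGroup.scalar (Fin 2) (-1)) = c 1) ∨
    (p = 3 ∧ ∃ c : GL (Fin 4) K → ℂ, Cu p K 4 c ∧ c (Matrix.GeneralLinearGroup.scalar (Fin 4) (-1)) = c 1)

end Cfsg.Agent.H763.OC
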