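import Cfsg.Agent.H763.OC.RowsO
import Cfsg.Agent.H898.OC.Cus

/-!
# The rows `PΩ` in defining characteristic (S4891, OC layer; helper763)

`oodd`, `ominus`, `oplus` (`m ≥ 5`), `oplus_four` (`p ≠ 3`).
-/

set_option autoImplicit false

open Cfsg

namespace Cfsg.Agent.H763.OC

open Cfsg.Agent.H993.OC

universe u

variable {p : ℕ} [Fact p.Prime]

theorem cu_of_cns {K : Type u} [Field K] {k : ℕ} {c : GL (Fin k) K → ℂ} (h : H898.OC.CNs p K k c) : Cu p K k c where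
  irr := h.irr
  cusp := h.cusp
  dual := h.dual
  rat := h.rat
  fix := h.fix
  deg := by
    obtain ⟨d, h1, h2, -⟩ := h.deg
    exact ⟨d, h1, h2⟩

theorem exCuTwo (hp2 : p ≠ 2) (K : Type u) [Field K] [Finite K] [CharP K p] : ExCuTwo p K := by
  rcases H898.OC.exists_cns_all hp2 K with ⟨c, hc, -⟩ | ⟨-, -, -, c, hc⟩
  · exact ⟨c, cu_of_cns hc⟩
  · exact ⟨c, cu_of_cns hc⟩

theorem exCuNeg (hp2 : p ≠ 2) (K : Type u) [Field K] [Finite K] [CharP K p] : ExCuNeg p K := by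
  rcases H898.OC.exists_cns_all hp2 K with ⟨c, hc, hn⟩ | ⟨h3, -, ⟨c, hc, hn⟩, -⟩
  · exact Or.inl ⟨c, cu_of_cns hc, hn⟩
  · exact Or.inr ⟨h3, c, cu_of_cns hc, hn⟩

/-- **`PΩ_{2m+1}(q)`, `m ≥ 3`** -/
theorem oodd (hp2 : p ≠ 2) (F : Type) [Field F] [Fintype F] [CharP F p] (m : ℕ) (hm : 3 ≤ m) :
    OCRow p (POmega F (quadFormOdd m F)) := row_oodd hp2 F (exCuTwo hp2 F) m hm

/-- **`PΩ⁻_{2m}(q)`, `m ≥ 4`** -/
theorem ominus (hp2 : p ≠ 2) (F : Type) [Field F] [Fintype F] [CharP F p] (m : ℕ) (a b : F) (hm : 4 ≤ m)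
    (hab : ∀ z₁ z₂ : F, z₁ ^ 2 + a * z₁ * z₂ + b * z₂ ^ 2 = 0 → z₁ = 0 ∧ z₂ = 0) :
    OCRow p (POmega F (quadFormMinus (m - 1) F a b)) :=
  row_ominus hp2 F (exCuTwo hp2 F) (exCuNeg hp2 F) m a b hm hab

/-- **`PΩ⁺_{2m}(q)`, `m ≥ 5`** -/
theorem oplus (hp2 : p ≠ 2) (F : Type) [Field F] [Fintype F] [CharP F p] (m : ℕ) (hm : 5 ≤ m) :
    OCRow p (POmega F (quadFormPlus m F)) := row_oplus hp2 F (exCuNeg hp2 F) m hm

/-- **`PΩ⁺_8(q)`, `p ≠ 3`** -/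
theorem oplus_four (hp2 : p ≠ 2) (hp3 : p ≠ 3) (F : Type) [Field F] [Fintype F] [CharP F p] :
    OCRow p (POmega F (quadFormPlus 4 F)) := row_oplus_four hp2 hp3 F (exCuNeg hp2 F)

end Cfsg.Agent.H763.OC
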