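import Cfsg.Agent.H477.HC.ModelB
import Cfsg.Agent.H477.HC.Trans
import Cfsg.Agent.H950.Quad
import Cfsg.Agent.H763.OC.Twist

/-!
# Reflections and the restriction of `F.hc c 1` to the commutator subgroup (S4891, OC layer, T4)

* `IsQuad F` : `F` is quadratic (`σ = id`, `ε = 1`, `T = id`);
* `closure_refl` : the isometry group is generated by reflections (characteristic `≠ 2`);
* `exists_Om_perp` : a nonsingular `v` is orthogonal to some `W ∈ F.Om k` if `2 k + 2 ≤ dim V`;
* `isIrr_hc_commutator` : `F.hc c 1` restricted to the commutator subgroup is irreducible;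
* `isIrr_hc_odd`, `isIrr_hc_plus`, `isIrr_hc_minus` : the models.
-/

set_option autoImplicit false

open Cfsg

namespace Cfsg.Agent.H763.OC

open Cfsg.Agent.Characters Cfsg.Agent.H477.HC Cfsg.Agent.H477.HC.CForm Cfsg.Agent.H53.HC Module

universe u v

variable {K : Type u} [Field K] {V : Type v} [AddCommGroup V] [Module K V] {F : CForm K V}

/-- quadratic forms -/
structure IsQuad (F : CForm K V) : Prop where
  σ : ∀ a, F.σ a = a
  ε : F.ε = 1
  T : ∀ a, F.T a = a

namespace IsQuad

theorem symm (h : IsQuad F) (u v : V) : F.B u v = F.B v u := by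
  rw [F.B_symm, h.ε, h.σ, one_mul]

theorem smul_right (h : IsQuad F) (a : K) (u v : V) : F.B u (a • v) = a * F.B u v := by
  rw [F.B_smul_right, h.σ]

theorem Q_add (h : IsQuad F) (u v : V) : F.Q (u + v) = F.Q u + F.Q v + F.B u v := by
  rw [F.Q_add, h.T]

theorem Q_smul (h : IsQuad F) (a : K) (u : V) : F.Q (a • u) = a * a * F.Q u := by
  rw [F.Q_smul, h.σ]

theorem Q_neg (h : IsQuad F) (u : V) : F.Q (-u) = F.Q u := by
  rw [← neg_one_smul K u, h.Q_smul]
  ring

theorem Q_sub (h : IsQuad F) (u v : V) : F.Q (u - v) = F.Q u + F.Q v - F.B u v := by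
  rw [sub_eq_add_neg, h.Q_add, h.Q_neg, F.B_neg_right]
  ring

theorem B_self (h : IsQuad F) (u : V) : F.B u u = 2 * F.Q u := by
  have h1 := h.Q_add u u
  have h2 := h.Q_smul 2 u
  rw [two_smul] at h2
  linear_combination h2 - h1

theorem Q_zero_of (h : IsQuad F) (h2 : (2 : K) ≠ 0) {u : V} (hu : F.B u u = 0) : F.Q u = 0 := by
  rw [h.B_self] at hu
  exact (mul_eq_zero.1 hu).resolve_left h2

/-- the bilinear form -/
def bil (h : IsQuad F) : LinearMap.BilinForm K V :=
  LinearMap.mk₂ K F.B F.B_add_left (fun c m n => F.B_smul_left c m n) F.B_add_right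
    (fun c m n => by rw [h.smul_right, smul_eq_mul])

@[simp] theorem bil_apply (h : IsQuad F) (u v : V) : h.bil u v = F.B u v := rfl

end IsQuad

/-- reflections -/
def IsRefl (F : CForm K V) (g : F.iso) : Prop :=
  ∃ u, F.Q u ≠ 0 ∧ ∀ v, (g : V ≃ₗ[K] V) v = v - (F.B v u / F.Q u) • u

theorem exists_refl [FiniteDimensional K V] (h : IsQuad F) {u : V} (hu : F.Q u ≠ 0) :
    ∃ r : F.iso, ∀ v, (r : V ≃ₗ[K] V) v = v - (F.B v u / F.Q u) • u := by
  let f : V →ₗ[K] V :=
    { toFun := fun v => v - (F.B v u / F.Q u) • u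
      map_add' := fun x y => by
        rw [F.B_add_left]
        module
      map_smul' := fun a x => by
        rw [F.B_smul_left, RingHom.id_apply]
        module }
  refine F.exists_iso f (fun x y => ?_) (fun x => ?_)
  · change F.B (x - (F.B x u / F.Q u) • u) (y - (F.B y u / F.Q u) • u) = F.B x y
    rw [F.B_sub_left, F.B_sub_right, F.B_sub_right, F.B_smul_left, F.B_smul_left, h.smul_right, h.smul_right,
      h.B_self u, h.symm u y]
    field_simp
    ring
  · change F.Q (x - (F.B x u / F.Q u) • u) = F.Q x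
    rw [h.Q_sub, h.Q_smul, h.smul_right]
    field_simp
    ring

/-- **the isometry group is generated by reflections** -/
theorem closure_refl [FiniteDimensional K V] (h : IsQuad F) (h2 : (2 : K) ≠ 0) :
    Subgroup.closure {g : F.iso | IsRefl F g} = ⊤ := by
  classical
  have _ : Invertible (2 : K) := invertibleOfNonzero h2
  have hsymm : LinearMap.IsSymm h.bil := ⟨fun x y => by
    rw [RingHom.id_apply, h.bil_apply, h.bil_apply]
    exact h.symm x y⟩
  obtain ⟨b, hb⟩ := LinearMap.BilinForm.exists_orthogonal_basis hsymm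
  have hb' : ∀ i j, i ≠ j → F.B (b i) (b j) = 0 := fun i j hij => hb hij
  have hQb : ∀ i, F.Q (b i) ≠ 0 := by
    intro i hi
    refine b.ne_zero i (F.nondeg (b i) fun u => ?_)
    rw [← b.sum_repr u]
    rw [← h.bil_apply, map_sum]
    refine Finset.sum_eq_zero fun j _ => ?_
    rw [map_smul, h.bil_apply]
    by_cases hij : i = j
    · subst hij
      rw [h.B_self, hi, mul_zero, smul_zero]
    · rw [hb' i j hij, smul_zero]
  have key : ∀ s : Finset (Fin (finrank K V)), ∀ g : F.iso, (∀ i, i ∉ s → (g : V ≃ₗ[K] V) (b i) = b i) →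
      g ∈ Subgroup.closure {g : F.iso | IsRefl F g} := by
    intro s
    induction s using Finset.induction_on with
    | empty =>
      intro g hg
      have : g = 1 := by
        apply Subtype.ext
        apply LinearEquiv.toLinearMap_injective
        exact b.ext fun i => hg i (Finset.notMem_empty i)
      rw [this]
      exact Subgroup.one_mem _
    | insert i s hi ih =>
      intro g hg
      have hgi : ∀ j, j ∉ s → j ≠ i → (g : V ≃ₗ[K] V) (b j) = b j := fun j hj hji => hg j (by
        rw [Finset.mem_insert, not_or]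
        exact ⟨hji, hj⟩)
      -- orthogonality of `g b_i`
      have horth : ∀ j, j ∉ s → j ≠ i → F.B (b j) ((g : V ≃ₗ[K] V) (b i)) = 0 := by
        intro j hj hji
        have := F.iso_B g (b j) (b i)
        rw [hgi j hj hji, hb' j i hji] at this
        exact this
      have hBg : F.B ((g : V ≃ₗ[K] V) (b i)) ((g : V ≃ₗ[K] V) (b i)) = 2 * F.Q (b i) := by
        rw [F.iso_B, h.B_self]
      have hQg := F.iso_Q g (b i)
      by_cases hA : F.Q ((g : V ≃ₗ[K] V) (b i) - b i) = 0
      · have hB0 : F.Q ((g : V ≃ₗ[K] V) (b i) + b i) ≠ 0 := by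
          intro h0
          rw [h.Q_sub, hQg] at hA
          rw [h.Q_add, hQg] at h0
          have : (2 * 2) * F.Q (b i) = 0 := by linear_combination hA + h0
          exact (mul_ne_zero (mul_ne_zero h2 h2) (hQb i)) this
        obtain ⟨r, hr⟩ := exists_refl h hB0
        obtain ⟨r', hr'⟩ := exists_refl h (hQb i)
        have h1 : r' * (r * g) ∈ Subgroup.closure {g : F.iso | IsRefl F g} := by
          apply ih
          intro j hj
          change (r' : V ≃ₗ[K] V) ((r : V ≃ₗ[K] V) ((g : V ≃ₗ[K] V) (b j))) = b j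
          by_cases hji : j = i
          · subst hji
            have e1 : F.B ((g : V ≃ₗ[K] V) (b j)) ((g : V ≃ₗ[K] V) (b j) + b j) =
                F.Q ((g : V ≃ₗ[K] V) (b j) + b j) := by
              rw [F.B_add_right, hBg, h.Q_add, hQg]
              ring
            have e2 : (r : V ≃ₗ[K] V) ((g : V ≃ₗ[K] V) (b j)) = - b j := by
              rw [hr, e1, div_self hB0, one_smul]
              abel
            rw [e2, hr', F.B_neg_left, h.B_self, neg_div, mul_div_assoc, div_self (hQb j)]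
            module
          · rw [hgi j hj hji, hr, F.B_add_right, horth j hj hji, hb' j i hji, add_zero, zero_div, zero_smul, sub_zero,
              hr', hb' j i hji, zero_div, zero_smul, sub_zero]
        have h3 : r' ∈ Subgroup.closure {g : F.iso | IsRefl F g} := Subgroup.subset_closure ⟨_, hQb i, hr'⟩
        have h4 : r ∈ Subgroup.closure {g : F.iso | IsRefl F g} := Subgroup.subset_closure ⟨_, hB0, hr⟩
        exact ((Subgroup.mul_mem_cancel_left _ h4).1 ((Subgroup.mul_mem_cancel_left _ h3).1 h1))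
      · obtain ⟨r, hr⟩ := exists_refl h hA
        have h1 : r * g ∈ Subgroup.closure {g : F.iso | IsRefl F g} := by
          apply ih
          intro j hj
          change (r : V ≃ₗ[K] V) ((g : V ≃ₗ[K] V) (b j)) = b j
          by_cases hji : j = i
          · subst hji
            have e1 : F.B ((g : V ≃ₗ[K] V) (b j)) ((g : V ≃ₗ[K] V) (b j) - b j) =
                F.Q ((g : V ≃ₗ[K] V) (b j) - b j) := by
              rw [F.B_sub_right, hBg, h.Q_sub, hQg]
              ring
            rw [hr, e1, div_self hA, one_smul]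
            abel
          · rw [hgi j hj hji, hr, F.B_sub_right, horth j hj hji, hb' j i hji, sub_zero, zero_div, zero_smul, sub_zero]
        have h4 : r ∈ Subgroup.closure {g : F.iso | IsRefl F g} := Subgroup.subset_closure ⟨_, hA, hr⟩
        exact (Subgroup.mul_mem_cancel_left _ h4).1 h1
  rw [eq_top_iff]
  intro g _
  exact key Finset.univ g fun i hi => absurd (Finset.mem_univ i) hi

/-- a totally singular subspace stabilised by a reflection is orthogonal to its centre -/
theorem le_perp_of_refl {g : F.iso} {u : V} (hu : F.Q u ≠ 0)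
    (hg : ∀ v, (g : V ≃ₗ[K] V) v = v - (F.B v u / F.Q u) • u) {W : Submodule K V} (hW : F.TS W)
    (h : W.map (F.iso.subtype g : V →ₗ[K] V) = W) : ∀ w ∈ W, F.B w u = 0 := by
  intro w hw
  by_contra h0
  apply hu
  apply hW.1
  have h1 : (g : V ≃ₗ[K] V) w ∈ W := by
    rw [← h]
    exact ⟨w, hw, rfl⟩
  rw [hg] at h1
  have h2 : (F.B w u / F.Q u) • u ∈ W := by
    have := W.sub_mem hw h1
    rwa [sub_sub_cancel] at this
  exact (W.smul_mem_iff (div_ne_zero h0 hu)).1 h2

theorem finrank_sup_span [FiniteDimensional K V] {W : Submodule K V} {w : V} (hw : w ∉ W) :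
    finrank K (W ⊔ Submodule.span K {w} : Submodule K V) = finrank K W + 1 := by
  have hw0 : w ≠ 0 := fun h => hw (h ▸ W.zero_mem)
  have h1 := Submodule.finrank_sup_add_finrank_inf_eq W (Submodule.span K {w})
  have h2 : W ⊓ Submodule.span K {w} = ⊥ := by
    rw [Submodule.eq_bot_iff]
    rintro x ⟨hx, hx'⟩
    obtain ⟨a, rfl⟩ := Submodule.mem_span_singleton.1 hx'
    by_cases ha : a = 0
    · rw [ha, zero_smul]
    · exact absurd ((W.smul_mem_iff ha).1 hx) hw
  rw [h2, finrank_bot, finrank_span_singleton hw0] at h1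
  omega

/-- dimension of the orthogonal space -/
theorem finrank_perp_ge [FiniteDimensional K V] (h : IsQuad F) (A : Submodule K V) :
    finrank K V ≤ finrank K A + finrank K (F.perp A) := by
  let f : V →ₗ[K] (A →ₗ[K] K) := (LinearMap.lcomp K K A.subtype).comp h.bil
  have h1 := LinearMap.finrank_range_add_finrank_ker f
  have h2 : finrank K (LinearMap.range f) ≤ finrank K A := by
    refine (Submodule.finrank_le _).trans ?_
    rw [Subspace.dual_finrank_eq]
  have h3 : LinearMap.ker f ≤ F.perp A := by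
    intro v hv w hw
    have := LinearMap.congr_fun (LinearMap.mem_ker.1 hv) ⟨w, hw⟩
    exact this
  have h4 := Submodule.finrank_mono h3
  omega

/-- **a vector is orthogonal to some totally singular `k`-subspace** -/
theorem exists_Om_perp [Finite K] [FiniteDimensional K V] (h : IsQuad F) (h2 : (2 : K) ≠ 0) (u : V) {k : ℕ}
    (hk : 2 * k + 2 ≤ finrank K V) : ∃ W ∈ F.Om k, ∀ w ∈ W, F.B w u = 0 := by
  induction k with
  | zero =>
    refine ⟨⊥, ⟨⟨fun w hw => ?_, fun w hw w' hw' => ?_⟩, finrank_bot K V⟩, fun w hw => ?_⟩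
    · rw [(Submodule.mem_bot K).1 hw, F.Q_zero]
    · rw [(Submodule.mem_bot K).1 hw, F.B_zero_left]
    · rw [(Submodule.mem_bot K).1 hw, F.B_zero_left]
  | succ k ih =>
    obtain ⟨W, ⟨hW, hWk⟩, hWu⟩ := ih (by omega)
    let A : Submodule K V := W ⊔ Submodule.span K {u}
    have hA : finrank K A ≤ k + 1 := by
      have h1 := Submodule.finrank_add_le_finrank_add_finrank W (Submodule.span K {u})
      have h3 : finrank K (Submodule.span K {u}) ≤ 1 := by
        have := finrank_span_le_card (R := K) ({u} : Set V)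
        simpa using this
      change finrank K (W ⊔ Submodule.span K {u} : Submodule K V) ≤ _
      omega
    have hP := finrank_perp_ge h A
    have hWP : W ≤ F.perp A := by
      intro w hw a ha
      obtain ⟨w', hw', x, hx, rfl⟩ := Submodule.mem_sup.1 ha
      obtain ⟨c, rfl⟩ := Submodule.mem_span_singleton.1 hx
      rw [F.B_add_right, hW.2 w hw w' hw', h.smul_right, hWu w hw, mul_zero, add_zero]
    obtain ⟨C, hC⟩ := Submodule.exists_isCompl (W.submoduleOf (F.perp A))
    have h1 := Submodule.finrank_add_eq_of_isCompl hC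
    have h3 : finrank K (W.submoduleOf (F.perp A)) = finrank K W := (Submodule.submoduleOfEquivOfLe hWP).finrank_eq
    obtain ⟨x, hx0, hx⟩ := H950.exists_common_isotropic (ι := Unit) (A := C)
      (fun _ => h.bil.compl₁₂ ((F.perp A).subtype.comp C.subtype) ((F.perp A).subtype.comp C.subtype)) (by
        rw [Fintype.card_unit]
        omega)
    have hxx : F.B ((x : F.perp A) : V) ((x : F.perp A) : V) = 0 := hx ()
    have hxQ := h.Q_zero_of h2 hxx
    have hxA : ((x : F.perp A) : V) ∈ F.perp A := (x : F.perp A).2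
    have hxW : ∀ w ∈ W, F.B ((x : F.perp A) : V) w = 0 := fun w hw => hxA w (Submodule.mem_sup_left hw)
    have hxu : F.B ((x : F.perp A) : V) u = 0 := hxA u (Submodule.mem_sup_right (Submodule.mem_span_singleton_self u))
    have hxn : ((x : F.perp A) : V) ∉ W := by
      intro hmem
      apply hx0
      have h4 : (x : F.perp A) ∈ (C ⊓ W.submoduleOf (F.perp A) : Submodule K (F.perp A)) := ⟨x.2, hmem⟩
      rw [inf_comm, hC.inf_eq_bot] at h4
      exact Subtype.ext ((Submodule.mem_bot K).1 h4)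
    refine ⟨W ⊔ Submodule.span K {((x : F.perp A) : V)}, ⟨⟨?_, ?_⟩, ?_⟩, ?_⟩
    · intro y hy
      obtain ⟨w, hw, z, hz, rfl⟩ := Submodule.mem_sup.1 hy
      obtain ⟨c, rfl⟩ := Submodule.mem_span_singleton.1 hz
      rw [h.Q_add, h.Q_smul, hxQ, hW.1 w hw, h.smul_right, h.symm, hxW w hw]
      ring
    · intro y hy y' hy'
      obtain ⟨w, hw, z, hz, rfl⟩ := Submodule.mem_sup.1 hy
      obtain ⟨c, rfl⟩ := Submodule.mem_span_singleton.1 hz
      obtain ⟨w', hw', z', hz', rfl⟩ := Submodule.mem_sup.1 hy'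
      obtain ⟨c', rfl⟩ := Submodule.mem_span_singleton.1 hz'
      rw [F.B_add_left, F.B_add_right, F.B_add_right, F.B_smul_left, F.B_smul_left, h.smul_right, h.smul_right,
        hW.2 w hw w' hw', h.symm w, hxW w hw, hxW w' hw', hxx]
      ring
    · rw [finrank_sup_span hxn, hWk]
    · intro y hy
      obtain ⟨w, hw, z, hz, rfl⟩ := Submodule.mem_sup.1 hy
      obtain ⟨c, rfl⟩ := Submodule.mem_span_singleton.1 hz
      rw [F.B_add_left, F.B_smul_left, hWu w hw, hxu]
      ring

/-- **the value at a reflection does not vanish** -/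
theorem hc_refl_ne_zero [Finite K] [FiniteDimensional K V] (h : IsQuad F) (h2 : (2 : K) ≠ 0) {k : ℕ}
    [Fintype (F.Om k)] (hk : 2 * k + 2 ≤ finrank K V) {c : GL (Fin k) K → ℂ} (hcf : IsClassFunction _ c)
    (hc1 : c 1 ≠ 0) {g : F.iso} (hg : IsRefl F g) : F.hc c (fun _ _ => 1) g ≠ 0 := by
  classical
  obtain ⟨u, hu, hg⟩ := hg
  have hval : ∀ W : F.Om k, flagTerm F.iso.subtype c g W.1 * 1 =
      c 1 * (if ∀ w ∈ W.1, F.B w u = 0 then 1 else 0 : ℕ) := by
    rintro ⟨W, hW⟩
    rw [mul_one]
    dsimp only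
    by_cases h0 : ∀ w ∈ W, F.B w u = 0
    · have hfix : ∀ w ∈ W, (g : V ≃ₗ[K] V) w = w := fun w hw => by
        rw [hg, h0 w hw, zero_div, zero_smul, sub_zero]
      have hmap : W.map (F.iso.subtype g : V →ₗ[K] V) = W := map_eq_of_le F.iso.subtype fun w hw => by
        change (g : V ≃ₗ[K] V) w ∈ W
        rw [hfix w hw]
        exact hw
      rw [if_pos h0, Nat.cast_one, mul_one, flagTerm_of F.iso.subtype c hmap]
      have e2 : res (F.iso.subtype g) W hmap = 1 := by
        ext w
        exact hfix w w.2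
      rw [e2, cl_one hcf (finBasisOfFinrankEq K W hW.2)]
    · rw [if_neg h0, Nat.cast_zero, mul_zero]
      unfold flagTerm
      rw [dif_neg]
      exact fun h' => h0 (le_perp_of_refl hu hg hW.1 h')
  have hsum : F.hc c (fun _ _ => 1) g = c 1 * ((∑ W : F.Om k, if ∀ w ∈ W.1, F.B w u = 0 then 1 else 0 : ℕ) : ℂ) := by
    unfold CForm.hc
    rw [Finset.sum_congr rfl fun W _ => hval W, ← Finset.mul_sum, Nat.cast_sum]
  rw [hsum]
  refine mul_ne_zero hc1 (Nat.cast_ne_zero.2 ?_)
  obtain ⟨W, hW, hWu⟩ := exists_Om_perp h h2 u hk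
  have h3 : 0 < ∑ W : F.Om k, if ∀ w ∈ W.1, F.B w u = 0 then 1 else 0 := by
    refine Finset.sum_pos' (fun _ _ => Nat.zero_le _) ⟨⟨W, hW⟩, Finset.mem_univ _, ?_⟩
    rw [if_pos hWu]
    exact one_pos
  exact h3.ne'

/-- **`F.hc c 1` restricted to the commutator subgroup** -/
theorem isIrr_hc_commutator [Finite K] [FiniteDimensional K V] (h : IsQuad F) (h2 : (2 : K) ≠ 0) {k : ℕ}
    [Fintype (F.Om k)] (hk : 2 * k + 2 ≤ finrank K V) {c : GL (Fin k) K → ℂ} (hc : IsIrrCharacter _ c)
    (hcusp : IsCusp c) (hdual : c ∘ F.iota k ≠ c) :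
    IsIrrCharacter (commutator F.iso) (fun n : commutator F.iso => F.hc c (fun _ _ => 1) n) := by
  classical
  have hfin : Finite V := Module.finite_of_finite K
  have hfin' : Finite (V ≃ₗ[K] V) := Finite.of_injective (fun e : V ≃ₗ[K] V => (e : V → V)) DFunLike.coe_injective
  have hG : Finite F.iso := inferInstance
  let _ : Fintype F.iso := Fintype.ofFinite _
  obtain ⟨W₀, hW₀, -⟩ := exists_Om_perp h h2 (0 : V) hk
  have hirr := F.isIrr_hc_one hc hcusp hdual hW₀
  have hc1 : c 1 ≠ 0 := Core.isIrr_apply_one_ne_zero hc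
  exact irr_commutator_of_twist hirr (fun t ht => hc_refl_ne_zero h h2 hk (Core.isIrr_isClassFunction hc) hc1 ht)
    (closure_refl h h2)

section Models

variable (K)

theorem isQuad_odd (m : ℕ) (h2 : (2 : K) ≠ 0) : IsQuad (oddF K m h2) := ⟨fun _ => rfl, rfl, fun _ => rfl⟩

theorem isQuad_plus (m : ℕ) : IsQuad (plusF K m) := ⟨fun _ => rfl, rfl, fun _ => rfl⟩

theorem isQuad_minus [Finite K] (m : ℕ) (a b : K) (hab : ∀ z₁ z₂ : K, z₁ ^ 2 + a * z₁ * z₂ + b * z₂ ^ 2 = 0 → z₁ = 0 ∧ z₂ = 0) :
    IsQuad (minusF K m a b hab) := ⟨fun _ => rfl, rfl, fun _ => rfl⟩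

variable {K}

/-- `2 < q` odd in the form used by the rows -/
theorem two_ne_zero_of_char {p : ℕ} [Fact p.Prime] [CharP K p] (hp : p ≠ 2) : (2 : K) ≠ 0 := by
  intro h
  have h1 : p ∣ 2 := (CharP.cast_eq_zero_iff K p 2).1 (by exact_mod_cast h)
  exact hp ((Nat.prime_dvd_prime_iff_eq (Fact.out : p.Prime) Nat.prime_two).1 h1)

variable [Finite K]

/-- **`Ω_{2m+1}(q)`**, `k < m` -/
theorem isIrr_hc_odd {m k : ℕ} (h2 : (2 : K) ≠ 0) [Fintype ((oddF K m h2).Om k)] (hk : k + 1 ≤ m)
    {c : GL (Fin k) K → ℂ} (hc : IsIrrCharacter _ c) (hcusp : IsCusp c) (hdual : c ∘ (oddF K m h2).iota k ≠ c) :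
    IsIrrCharacter (commutator (oddF K m h2).iso)
      (fun n : commutator (oddF K m h2).iso => (oddF K m h2).hc c (fun _ _ => 1) n) := by
  refine isIrr_hc_commutator (isQuad_odd K m h2) h2 ?_ hc hcusp hdual
  rw [finrank_fintype_fun_eq_card, Fintype.card_sum, Fintype.card_sum, Fintype.card_unit, Fintype.card_fin]
  omega

/-- **`Ω⁺_{2m}(q)`**, `k < m` -/
theorem isIrr_hc_plus {m k : ℕ} (h2 : (2 : K) ≠ 0) [Fintype ((plusF K m).Om k)] (hk : k + 1 ≤ m)
    {c : GL (Fin k) K → ℂ} (hc : IsIrrCharacter _ c) (hcusp : IsCusp c) (hdual : c ∘ (plusF K m).iota k ≠ c) :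
    IsIrrCharacter (commutator (plusF K m).iso)
      (fun n : commutator (plusF K m).iso => (plusF K m).hc c (fun _ _ => 1) n) := by
  refine isIrr_hc_commutator (isQuad_plus K m) h2 ?_ hc hcusp hdual
  rw [finrank_fintype_fun_eq_card, Fintype.card_sum, Fintype.card_fin]
  omega

/-- **`Ω⁻_{2m+2}(q)`**, `k ≤ m` -/
theorem isIrr_hc_minus {m k : ℕ} (h2 : (2 : K) ≠ 0) {a b : K}
    (hab : ∀ z₁ z₂ : K, z₁ ^ 2 + a * z₁ * z₂ + b * z₂ ^ 2 = 0 → z₁ = 0 ∧ z₂ = 0)
    [Fintype ((minusF K m a b hab).Om k)] (hk : k ≤ m)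
    {c : GL (Fin k) K → ℂ} (hc : IsIrrCharacter _ c) (hcusp : IsCusp c)
    (hdual : c ∘ (minusF K m a b hab).iota k ≠ c) :
    IsIrrCharacter (commutator (minusF K m a b hab).iso)
      (fun n : commutator (minusF K m a b hab).iso => (minusF K m a b hab).hc c (fun _ _ => 1) n) := by
  refine isIrr_hc_commutator (isQuad_minus K m a b hab) h2 ?_ hc hcusp hdual
  rw [finrank_fintype_fun_eq_card, Fintype.card_sum, Fintype.card_sum, Fintype.card_fin, Fintype.card_fin]
  omega

end Models

end Cfsg.Agent.H763.OC
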